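import Cfsg.Agent.H609.TH.Expl

/-!
# S3938: the criteria `ltwo` with a general exclusion hypothesis (helper609)

`hL` : every simple group at the top over the chosen `s` is `L₂(r)`.
* `goodA_of_ltwo'`, `uniq_of_ltwo'`, `spr_of_ltwo_mod'`, `spr_of_ltwo_one'`, `spr_of_ltwo_count'`.
-/

set_option autoImplicit false

namespace Cfsg.Agent.H609.TH

open Subgroup Cfsg.Agent.OrdDiv Cfsg.Agent.H257.El Cfsg.Agent.H424.Spr

universe u

section

variable {T : Type u} [Group T] [Finite T] {r : ℕ}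

/-- **Only `L₂(r)` at the top.** `c` bounds the number of the subgroups `L₂(r)` which contain `s`. -/
theorem goodA_of_ltwo' {n : ℕ} {l : List (ℕ × ℕ)} (tab : OrderTable.{u}) (known : Known.{u}) (hn : Nat.card T = n)
    (hv : valid l n = true) (hr : r.Prime) (hr3 : 3 < r) (h2 : ¬ r ^ 2 ∣ n) (hfree : Free r T)
    (hsc : Cfsg.Agent.H537.Cop.SC r T) {s : T} (hs : orderOf s = r)
    (hL : ∀ K N : Subgroup T, K ≠ ⊤ → IsTop T n l r s K N → IsLTwo r s N)
    {c : ℕ}
    (hc : ∀ a t : T, orderOf a = (r - 1) / 2 → t * a * t⁻¹ = a⁻¹ →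
      Nat.card (centralizer ({a} : Set T)) ≤ c * ((r - 1) / 2) + ((r - 1) / 2 - 1)) (α : MulAut T)
    (hlt : (r - 1) * (1 + c * r) * r * Nat.card {x : T // α x = x} < n) : GoodA α := by
  classical
  have hr' : Fact r.Prime := ⟨hr⟩
  have h2' : ¬ r ^ 2 ∣ Nat.card T := by rwa [hn]
  have hm1 : 1 < (r - 1) / 2 := by
    have h1 : r ≠ 4 := by rintro rfl; norm_num at hr
    omega
  obtain ⟨m, hm⟩ : ∃ m, r = 2 * m + 1 := hr.odd_of_ne_two (by omega)
  have hm' : (r - 1) / 2 = m := by omega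
  have _ := Fintype.ofFinite (Subgroup T)
  set NN : Finset (Subgroup T) := Finset.univ.filter fun N => IsLTwo r s N with hNN
  have hcard : NN.card ≤ c := by
    rcases ltwo_count hr hr3 h2' hsc hs (NN := NN) (fun N hN => (Finset.mem_filter.1 hN).2) with h | ⟨a, t, ha, -, ht, h⟩
    · rw [h]
      exact Nat.zero_le _
    · have h3 := hc a t ha ht
      rw [hm'] at h3 h hm1
      by_contra h4
      have h5 : (c + 1) * m ≤ NN.card * m := Nat.mul_le_mul_right _ (by omega)
      have h6 : (c + 1) * m = c * m + m := by ring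
      omega
  refine goodA_of_tops tab known hn hv hr h2 hfree hsc hs NN (fun K N hK hsK hN => ?_) (fun _ => r ^ 2 - 1)
    (fun N hN => ?_) α ?_
  · exact Finset.mem_filter.2 ⟨Finset.mem_univ _, hL K N hK hN⟩
  · have hN' := (Finset.mem_filter.1 hN).2
    refine ⟨hN'.1, ?_⟩
    -- the order of `N`
    have hcN : Nat.card N = r * (2 * m * (m + 1)) := by
      obtain ⟨-, F, _, _, hF, ⟨e⟩⟩ := hN'
      have h3 := Cfsg.Agent.ClassicalGeometry.PSL2Basic.card_PSL2_odd (F := F) (by rw [hF, hm]; exact ⟨m, rfl⟩)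
      rw [← Nat.card_congr e.toEquiv, hF] at h3
      have h4 : r ^ 2 - 1 = 4 * m * (m + 1) := by
        rw [hm]
        have : (2 * m + 1) ^ 2 = 4 * m * (m + 1) + 1 := by ring
        omega
      rw [h4] at h3
      have h5 : r * (4 * m * (m + 1)) = r * (2 * m * (m + 1)) * 2 := by ring
      omega
    have hmod : (Nat.card N / r) % r = m := by
      rw [hcN, Nat.mul_div_cancel_left _ hr.pos]
      have h3 : 2 * m * (m + 1) = m + r * m := by rw [hm]; ring
      rw [h3, Nat.add_mul_mod_self_left, Nat.mod_eq_of_lt (by omega)]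
    have h3 := card_orderOf_mul_le hr (fun h => h2' (h.trans (card_subgroup_dvd_card N))) (by
      intro h
      rw [hcN] at h
      have h4 : r * (2 * m * (m + 1)) = r * 1 := by rw [h, mul_one]
      have h5 := Nat.eq_of_mul_eq_mul_left hr.pos h4
      have h6 : 2 * m * (m + 1) = 2 * (m * (m + 1)) := by ring
      omega) (sc_sub hr hsc N) (s := ⟨s, hN'.1⟩) (by rw [Subgroup.orderOf_mk, hs])
    rw [hmod, hcN] at h3
    have h4 : r - 1 = 2 * m := by omega
    have h5 : r * (2 * m * (m + 1)) * (r - 1) = (4 * m * (m + 1)) * (r * m) := by rw [h4]; ring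
    rw [h5] at h3
    have h6 := Nat.le_of_mul_le_mul_right h3 (Nat.mul_pos hr.pos (by omega))
    have h7 : r ^ 2 - 1 = 4 * m * (m + 1) := by
      rw [hm]
      have : (2 * m + 1) ^ 2 = 4 * m * (m + 1) + 1 := by ring
      omega
    rw [h7]
    exact h6
  · refine lt_of_le_of_lt ?_ hlt
    rw [Finset.sum_const, smul_eq_mul]
    refine Nat.mul_le_mul_right _ (Nat.mul_le_mul_right _ ?_)
    have h7 : r ^ 2 - 1 - (r - 1) = (r - 1) * r := by
      have h8 : r ^ 2 - 1 = 4 * m * (m + 1) := by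
        rw [hm]
        have : (2 * m + 1) ^ 2 = 4 * m * (m + 1) + 1 := by ring
        omega
      have h9 : r - 1 = 2 * m := by omega
      rw [h8, h9, hm]
      have : 4 * m * (m + 1) = 2 * m * (2 * m + 1) + 2 * m := by ring
      omega
    rw [h7]
    calc (r - 1) + NN.card * ((r - 1) * r) = (r - 1) * (1 + NN.card * r) := by ring
      _ ≤ (r - 1) * (1 + c * r) := Nat.mul_le_mul_left _ (Nat.add_le_add_left (Nat.mul_le_mul_right _ hcard) _)


/-- **Only `L₂(r)` at the top, at most one.** -/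
theorem uniq_of_ltwo' [IsSimpleGroup T] {n : ℕ} {l : List (ℕ × ℕ)} (tab : OrderTable.{u}) (known : Known.{u})
    (hn : Nat.card T = n) (hv : valid l n = true) (hr : r.Prime) (hr3 : 3 < r) (h2 : ¬ r ^ 2 ∣ n) (hne : n ≠ r)
    (hfree : Free r T) (hsc : Cfsg.Agent.H537.Cop.SC r T) {s : T} (hs : orderOf s = r)
    (hL : ∀ K N : Subgroup T, K ≠ ⊤ → IsTop T n l r s K N → IsLTwo r s N)
    (hc : ∀ a t : T, orderOf a = (r - 1) / 2 → t * a * t⁻¹ = a⁻¹ →
      Nat.card (centralizer ({a} : Set T)) < 2 * ((r - 1) / 2)) : Uniq T := by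
  classical
  refine uniq_of_unique tab known hn hv hr h2 hne hfree hs fun K N K' N' hK hK' hN hN' => ?_
  by_contra hne'
  rcases ltwo_count hr hr3 (by rwa [hn]) hsc hs (NN := {N, N'}) (fun X hX => by
    rcases Finset.mem_insert.1 hX with rfl | hX
    · exact hL K _ hK hN
    · rw [Finset.mem_singleton.1 hX]
      exact hL K' _ hK' hN') with h | ⟨a, t, ha, -, ht, h⟩
  · exact absurd h (Finset.insert_ne_empty _ _)
  · rw [Finset.card_pair hne'] at h
    exact absurd (hc a t ha ht) (by omega)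

end

section

variable {T : Type u} [Group T] [Finite T] [IsSimpleGroup T] {r n : ℕ} {l : List (ℕ × ℕ)}

/-- **Only `L₂(r)` at the top, but `(r - 1) / 2` does not divide `|N(⟨s⟩) : ⟨s⟩|`.** -/
theorem spr_of_ltwo_mod' (tab : OrderTable.{u}) (known : Known.{u}) (hna : ∃ x y : T, x * y ≠ y * x)
    (hn : Nat.card T = n) (hr : r.Prime) (hchk : chkN n l r = true) (hfree : Free r T)
    (hsc : Cfsg.Agent.H537.Cop.SC r T) {s : T} (hs : orderOf s = r)
    (hL : ∀ K N : Subgroup T, K ≠ ⊤ → IsTop T n l r s K N → IsLTwo r s N)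
    (hmod : ¬ (r - 1) / 2 ∣ (n / r) % r) : Spr T := by
  obtain ⟨hv, hr3, hrn, h2, hne⟩ := of_chkN hchk
  refine spr_of_uniq hna (uniq_of_none tab known hn hv hr h2 hne hfree hs fun K N hK _ hN => hmod ?_)
  have h4 := (hL K N hK hN).dvd hr hr3 (by rwa [hn]) hsc hs
  rwa [hn] at h4

/-- **Only `L₂(r)` at the top, at most one** (`|C(a)| < r - 1` for `a` of order `(r - 1) / 2` inverted by some `t`). -/
theorem spr_of_ltwo_one' (tab : OrderTable.{u}) (known : Known.{u}) (hna : ∃ x y : T, x * y ≠ y * x)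
    (hn : Nat.card T = n) (hr : r.Prime) (hchk : chkN n l r = true) (hfree : Free r T)
    (hsc : Cfsg.Agent.H537.Cop.SC r T) {s : T} (hs : orderOf s = r)
    (hL : ∀ K N : Subgroup T, K ≠ ⊤ → IsTop T n l r s K N → IsLTwo r s N)
    (hc : ∀ a t : T, orderOf a = (r - 1) / 2 → t * a * t⁻¹ = a⁻¹ →
      Nat.card (centralizer ({a} : Set T)) < 2 * ((r - 1) / 2)) : Spr T := by
  obtain ⟨hv, hr3, hrn, h2, hne⟩ := of_chkN hchk
  exact spr_of_uniq hna (uniq_of_ltwo' tab known hn hv hr hr3 h2 hne hfree hsc hs hL hc)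

omit [IsSimpleGroup T] in
/-- **Only `L₂(r)` at the top, counting**: `c` bounds their number, `D` the centralizers of the automorphisms of prime
order. -/
theorem spr_of_ltwo_count' (tab : OrderTable.{u}) (known : Known.{u}) (hn : Nat.card T = n) (hr : r.Prime)
    (hchk : chkN n l r = true) (hfree : Free r T) (hsc : Cfsg.Agent.H537.Cop.SC r T) {s : T} (hs : orderOf s = r)
    (hL : ∀ K N : Subgroup T, K ≠ ⊤ → IsTop T n l r s K N → IsLTwo r s N) {c D : ℕ}
    (hc : ∀ a t : T, orderOf a = (r - 1) / 2 → t * a * t⁻¹ = a⁻¹ →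
      Nat.card (centralizer ({a} : Set T)) ≤ c * ((r - 1) / 2) + ((r - 1) / 2 - 1))
    (hD : ∀ a : MulAut T, (orderOf a).Prime → Nat.card {x : T // a x = x} ≤ D)
    (hlt : (r - 1) * (1 + c * r) * r * D < n) : Spr T := by
  obtain ⟨hv, hr3, hrn, h2, hne⟩ := of_chkN hchk
  refine spr_of_prime fun a ha => goodA_of_ltwo' tab known hn hv hr hr3 h2 hfree hsc hs hL hc a ?_
  exact lt_of_le_of_lt (Nat.mul_le_mul_left _ (hD a ha)) hlt

end

end Cfsg.Agent.H609.TH
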